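import Mathlib
import Cfsg.Agent.Base
import Cfsg.Agent.Lib.CGT.Net
import Cfsg.Agent.Lib.TH3.Tab

/-! Codes for the elements of a group of order `3 ^ 10` and their multiplication. -/

set_option autoImplicit false
set_option maxRecDepth 100000

namespace H18.TH

open H54

noncomputable def rd (s : ℕ) : ℕ :=
  Nat.sub s (Nat.mul 3 (Nat.land (Nat.shiftRight (Nat.mul s 3) 3) 0x0303030303))

noncomputable def gT (r q : ℕ) : ℕ :=
  Nat.land (Nat.shiftRight (force r tT) (Nat.mul 60 q)) 1152921504606846975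

noncomputable def gA (r v : ℕ) : ℕ :=
  Nat.land (Nat.shiftRight (force r tA) (Nat.mul 34 v)) 17179869183

/-- the product of two codes -/
noncomputable def mu (x y : ℕ) : ℕ :=
  rd (Nat.add (Nat.add
    (Nat.land (Nat.shiftRight (force (Nat.div y 2225411534618624) tT)
      (Nat.mul 60 (Nat.div x 2225411534618624))) 1152921504606846975)
    (Nat.land (Nat.shiftRight (force (Nat.div y 2225411534618624) tA)
      (Nat.mul 34 (Nat.mod x 253))) 17179869183)) (Nat.mod y 2225411534618624))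

noncomputable def gW (v : ℕ) : ℕ := Nat.land (Nat.shiftRight tW (Nat.mul 34 v)) 17179869183

/-- the code of the element with number `n` -/
noncomputable def enc (n : ℕ) : ℕ :=
  Nat.add (Nat.mul 2225411534618624 (Nat.mod (Nat.div n 243) 243))
    (Nat.land (Nat.shiftRight tW (Nat.mul 34 (Nat.mod n 243))) 17179869183)

noncomputable def dec (x : ℕ) : ℕ := Nat.add (Nat.mul 243 (Nat.div x 2225411534618624)) (Nat.mod x 253)

/-- the inverse of a code -/
noncomputable def iv (x : ℕ) : ℕ :=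
  mu (rd (Nat.mul 2 (Nat.mod x 2225411534618624)))
    (Nat.land (Nat.shiftRight tI (Nat.mul 60 (Nat.div x 2225411534618624))) 1152921504606846975)

/-- the thresholds of the series -/
def th (j : ℕ) : ℕ := if j < 5 then 256 ^ j else 2225411534618624 * 3 ^ (j - 5)

/-- the threshold below a code -/
noncomputable def dv (y : ℕ) : ℕ :=
  Bool.rec (motive := fun _ => ℕ) (Nat.shiftLeft 1 (Nat.land (Nat.log2 y) 56))
    (Nat.mul 2225411534618624
      (Nat.land (Nat.shiftRight tD (Nat.mul 8 (Nat.div y 2225411534618624))) 255))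
    (Nat.ble 2225411534618624 y)

def wd (v : ℕ) : ℕ :=
  v % 3 + 256 * (v / 3 % 3) + 65536 * (v / 9 % 3) + 16777216 * (v / 27 % 3) + 4294967296 * (v / 81 % 3)

/-- the valid codes -/
def Val (x : ℕ) : Prop := ∃ q < 243, ∃ v < 243, x = 2225411534618624 * q + wd v

theorem mu_eq (x y : ℕ) : mu x y = rd (gT (y / 2225411534618624) (x / 2225411534618624) +
    gA (y / 2225411534618624) (x % 253) + y % 2225411534618624) := rfl

theorem gW_chk : allLt (fun v => band (Nat.beq (gW v) (wd v)) (Nat.beq (Nat.mod (wd v) 253) v)) 243 = true := by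
  decide +kernel

theorem gW_eq {v : ℕ} (h : v < 243) : gW v = wd v ∧ wd v % 253 = v := by
  have := (allLt_iff _ _).1 gW_chk v h
  rwa [band_eq_true, Nat.beq_eq, Nat.beq_eq] at this

theorem enc_eq (n : ℕ) : enc n = 2225411534618624 * (n / 243 % 243) + wd (n % 243) := by
  rw [← (gW_eq (Nat.mod_lt n (by norm_num))).1]; rfl

theorem val_enc (n : ℕ) : Val (enc n) :=
  ⟨_, Nat.mod_lt _ (by norm_num), _, Nat.mod_lt _ (by norm_num), enc_eq n⟩

theorem Val.ex {x : ℕ} (h : Val x) : ∃ n < 59049, x = enc n := by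
  obtain ⟨q, hq, v, hv, rfl⟩ := h
  refine ⟨243 * q + v, by omega, ?_⟩
  rw [enc_eq, show (243 * q + v) / 243 % 243 = q by omega, show (243 * q + v) % 243 = v by omega]

theorem val_zero : Val 0 := ⟨0, by norm_num, 0, by norm_num, rfl⟩

theorem wd_lt (v : ℕ) : wd v < 17179869184 := by unfold wd; omega

theorem sp {q v : ℕ} (hv : v < 243) : (2225411534618624 * q + wd v) / 2225411534618624 = q ∧
    (2225411534618624 * q + wd v) % 2225411534618624 = wd v ∧
    (2225411534618624 * q + wd v) % 253 = v := by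
  have := wd_lt v
  have := (gW_eq hv).2
  omega

theorem Val.lt {x : ℕ} (h : Val x) : x < th 10 := by
  obtain ⟨q, hq, v, hv, rfl⟩ := h
  have := wd_lt v
  show _ < 540775002912325632
  omega

theorem val_of_beq {x : ℕ} (h : Nat.beq x (enc (dec x)) = true) : Val x := by
  rw [Nat.beq_eq] at h; rw [h]; exact val_enc _

theorem rd_chk : allLt (fun a => allLt (fun b => allLt (fun c => allLt (fun d => allLt (fun e =>
    Nat.beq (((a + 256 * b + 65536 * c + 16777216 * d + 4294967296 * e) * 3 / 8) &&& 0x0303030303)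
      (a / 3 + 256 * (b / 3) + 65536 * (c / 3) + 16777216 * (d / 3) + 4294967296 * (e / 3)))
    7) 7) 7) 7) 7 = true := by decide +kernel

theorem land_hi (c u : ℕ) (hu : u < 2 ^ 40) : (2 ^ 40 * c + u) &&& 0x0303030303 = u &&& 0x0303030303 := by
  refine Nat.eq_of_testBit_eq fun i => ?_
  rw [Nat.testBit_and, Nat.testBit_and, Nat.testBit_two_pow_mul_add _ hu]
  split_ifs with h
  · rfl
  · have : Nat.testBit 0x0303030303 i = false :=
      Nat.testBit_lt_two_pow (lt_of_lt_of_le (by norm_num) (Nat.pow_le_pow_right (by norm_num) (not_lt.1 h)))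
    simp [this]

theorem rd_spec (h : ℕ) {a b c d e : ℕ} (ha : a < 7) (hb : b < 7) (hc : c < 7) (hd : d < 7) (he : e < 7) :
    rd (2225411534618624 * h + (a + 256 * b + 65536 * c + 16777216 * d + 4294967296 * e)) =
      2225411534618624 * h + (a % 3 + 256 * (b % 3) + 65536 * (c % 3) + 16777216 * (d % 3) +
        4294967296 * (e % 3)) := by
  have k := (allLt_iff _ _).1 ((allLt_iff _ _).1 ((allLt_iff _ _).1 ((allLt_iff _ _).1
    ((allLt_iff _ _).1 rd_chk a ha) b hb) c hc) d hd) e he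
  rw [Nat.beq_eq] at k
  generalize hw : a + 256 * b + 65536 * c + 16777216 * d + 4294967296 * e = w at k ⊢
  have e1 : rd (2225411534618624 * h + w) = (2225411534618624 * h + w) -
      3 * ((((2225411534618624 * h + w) * 3) >>> 3) &&& 0x0303030303) := rfl
  rw [e1, Nat.shiftRight_eq_div_pow, show (2225411534618624 * h + w) * 3 / 2 ^ 3 =
    2 ^ 40 * (759 * h) + w * 3 / 8 by omega, land_hi _ _ (by omega), k]
  omega

/-- the sum of three vectors -/
def ad (u v w : ℕ) : ℕ :=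
  (u % 3 + v % 3 + w % 3) % 3 + 3 * ((u / 3 % 3 + v / 3 % 3 + w / 3 % 3) % 3) +
  9 * ((u / 9 % 3 + v / 9 % 3 + w / 9 % 3) % 3) + 27 * ((u / 27 % 3 + v / 27 % 3 + w / 27 % 3) % 3) +
  81 * ((u / 81 % 3 + v / 81 % 3 + w / 81 % 3) % 3)

theorem dlt {a b c d e : ℕ} (ha : a < 3) (hb : b < 3) (hc : c < 3) (hd : d < 3) (he : e < 3) :
    a + 3 * b + 9 * c + 27 * d + 81 * e < 243 := by omega

theorem ad_lt (u v w : ℕ) : ad u v w < 243 :=
  have m : ∀ n, n % 3 < 3 := fun n => Nat.mod_lt n (by norm_num)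
  dlt (m _) (m _) (m _) (m _) (m _)

theorem dg {a b c d e : ℕ} (ha : a < 3) (hb : b < 3) (hc : c < 3) (hd : d < 3) (he : e < 3) :
    (a + 3 * b + 9 * c + 27 * d + 81 * e) % 3 = a ∧ (a + 3 * b + 9 * c + 27 * d + 81 * e) / 3 % 3 = b ∧
    (a + 3 * b + 9 * c + 27 * d + 81 * e) / 9 % 3 = c ∧ (a + 3 * b + 9 * c + 27 * d + 81 * e) / 27 % 3 = d ∧
    (a + 3 * b + 9 * c + 27 * d + 81 * e) / 81 % 3 = e := by omega

theorem rd_ad (h u v w : ℕ) : rd (2225411534618624 * h + wd u + wd v + wd w) =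
    2225411534618624 * h + wd (ad u v w) := by
  have m : ∀ n, n % 3 < 3 := fun n => Nat.mod_lt n (by norm_num)
  obtain ⟨e0, e1, e2, e3, e4⟩ := dg (m (u % 3 + v % 3 + w % 3)) (m (u / 3 % 3 + v / 3 % 3 + w / 3 % 3))
    (m (u / 9 % 3 + v / 9 % 3 + w / 9 % 3)) (m (u / 27 % 3 + v / 27 % 3 + w / 27 % 3))
    (m (u / 81 % 3 + v / 81 % 3 + w / 81 % 3))
  have s : ∀ x y z : ℕ, x % 3 + y % 3 + z % 3 < 7 := fun x y z => by omega
  rw [wd.eq_def (ad u v w), ad, e0, e1, e2, e3, e4, ← rd_spec h (s _ _ _) (s _ _ _) (s _ _ _) (s _ _ _) (s _ _ _)]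
  congr 1
  unfold wd; ring

noncomputable def gP (r : ℕ) : ℕ := Nat.land (Nat.shiftRight tP (Nat.mul 8 r)) 255

/-- the row `r` of the tables comes from the rows `r - gP r` and `gP r` -/
noncomputable def rowOk (r : ℕ) : Bool :=
  force (gP r) fun s => force (Nat.sub r s) fun r' => force (Nat.mul 2225411534618624 s) fun y =>
    band (allLt (fun q => band (Nat.beq (gT r q) (enc (dec (gT r q))))
      (band (Nat.beq (gA r q) (gW (Nat.mod (gA r q) 253))) (Nat.ble (Nat.mod (gA r q) 253) 242))) 243)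
    (bor (Nat.beq r s) (band (anyL (Nat.beq s) [1, 3, 9, 27, 81])
      (band (Nat.beq (gT s r') (Nat.mul 2225411534618624 r))
      (allLt (fun q => band (Nat.beq (gT r q) (mu (gT r' q) y))
        (Nat.beq (gA r q) (gA s (Nat.mod (gA r' q) 253)))) 243))))

theorem row_chk1 : allLt rowOk 81 = true := by decide +kernel
theorem row_chk2 : allLt (fun r => rowOk (Nat.add 81 r)) 81 = true := by decide +kernel
theorem row_chk3 : allLt (fun r => rowOk (Nat.add 162 r)) 81 = true := by decide +kernel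
theorem row_chk0 : allLt (fun r => bimp (Nat.beq r (gP r)) (anyL (Nat.beq r) [0, 1, 3, 9, 27, 81])) 243 = true := by
  decide +kernel

theorem row_ok {r : ℕ} (h : r < 243) : rowOk r = true := by
  rcases Nat.lt_or_ge r 81 with a | a
  · exact (allLt_iff _ _).1 row_chk1 r a
  rcases Nat.lt_or_ge r 162 with b | b
  · have := (allLt_iff _ _).1 row_chk2 (r - 81) (by omega)
    rwa [show Nat.add 81 (r - 81) = r by show 81 + (r - 81) = r; omega] at this
  · have := (allLt_iff _ _).1 row_chk3 (r - 162) (by omega)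
    rwa [show Nat.add 162 (r - 162) = r by show 162 + (r - 162) = r; omega] at this

theorem row_val {r q : ℕ} (h : r < 243) (hq : q < 243) :
    Val (gT r q) ∧ ∃ w < 243, gA r q = wd w := by
  have := row_ok h
  simp only [rowOk, force_eq, band_eq_true, allLt_iff] at this
  obtain ⟨a, b, c⟩ := this.1 q hq
  rw [Nat.beq_eq] at b; rw [Nat.ble_eq] at c
  have c' : gA r q % 253 < 243 := Nat.lt_succ_of_le c
  exact ⟨val_of_beq a, _, c', b.trans (gW_eq c').1⟩

theorem mu_form {q v r u h t w : ℕ} (hv : v < 243) (hu : u < 243)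
    (e1 : gT r q = 2225411534618624 * h + wd t) (e2 : gA r v = wd w) :
    mu (2225411534618624 * q + wd v) (2225411534618624 * r + wd u) =
      2225411534618624 * h + wd (ad t w u) := by
  rw [mu_eq, (sp hv).1, (sp hv).2.2, (sp hu).1, (sp hu).2.1, e1, e2, rd_ad]

theorem Val.mu {x y : ℕ} (hx : Val x) (hy : Val y) : Val (mu x y) := by
  obtain ⟨q, hq, v, hv, rfl⟩ := hx
  obtain ⟨r, hr, u, hu, rfl⟩ := hy
  obtain ⟨h, hh, t, -, e1⟩ := (row_val hr hq).1
  obtain ⟨w, -, e2⟩ := (row_val hr hv).2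
  exact ⟨h, hh, _, ad_lt _ _ _, mu_form hv hu e1 e2⟩

noncomputable def ivOk (n : ℕ) : Bool := force (enc n) fun x => force (iv x) fun y =>
  band (band (Nat.beq (mu x y) 0) (Nat.beq y (enc (dec y))))
    (bor (Nat.beq x 0) (force (dv x) fun D => anyL (fun p : ℕ × ℕ => band (Nat.beq D p.1)
      (band (Nat.ble D x) (Nat.ble (Nat.succ x) p.2)))
      [(th 9, th 10), (th 8, th 9), (th 7, th 8), (th 6, th 7), (th 5, th 6), (th 4, th 5),
        (th 3, th 4), (th 2, th 3), (th 1, th 2), (th 0, th 1)]))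

theorem iv_chk1 : allLt (fun i => allLt (fun j => ivOk (Nat.add (Nat.mul 243 i) j)) 243) 121 = true := by
  decide +kernel
theorem iv_chk2 : allLt (fun i => allLt (fun j => ivOk (Nat.add (Nat.mul 243 (Nat.add 121 i)) j)) 243) 122 = true := by
  decide +kernel

theorem iv_ok {n : ℕ} (h : n < 59049) : ivOk n = true := by
  rcases Nat.lt_or_ge (n / 243) 121 with a | a
  · have := (allLt_iff _ _).1 ((allLt_iff _ _).1 iv_chk1 _ a) (n % 243) (Nat.mod_lt _ (by norm_num))
    rwa [show Nat.add (Nat.mul 243 (n / 243)) (n % 243) = n from Nat.div_add_mod n 243] at this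
  · have := (allLt_iff _ _).1 ((allLt_iff _ _).1 iv_chk2 (n / 243 - 121) (by omega)) (n % 243)
      (Nat.mod_lt _ (by norm_num))
    rwa [show Nat.add (Nat.mul 243 (Nat.add 121 (n / 243 - 121))) (n % 243) = n by
      show 243 * (121 + (n / 243 - 121)) + n % 243 = n; omega] at this

theorem Val.iv {x : ℕ} (hx : Val x) : Val (iv x) ∧ H18.TH.mu x (iv x) = 0 := by
  obtain ⟨n, hn, rfl⟩ := hx.ex
  have := iv_ok hn
  simp only [ivOk, force_eq, band_eq_true] at this
  exact ⟨val_of_beq this.1.2, Nat.eq_of_beq_eq_true this.1.1⟩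

theorem Val.dv {x : ℕ} (hx : Val x) (h0 : x ≠ 0) :
    ∃ j < 10, dv x = th j ∧ th j ≤ x ∧ x < th (j + 1) := by
  obtain ⟨n, hn, rfl⟩ := hx.ex
  have := iv_ok hn
  simp only [ivOk, force_eq, band_eq_true, bor_eq_true, anyL_iff, Nat.beq_eq, Nat.ble_eq] at this
  obtain ⟨p, hp, e1, e2, e3⟩ := this.2.resolve_left h0
  rw [e1] at e2 ⊢
  simp only [List.mem_cons, List.not_mem_nil, or_false] at hp
  rcases hp with rfl | rfl | rfl | rfl | rfl | rfl | rfl | rfl | rfl | rfl
  exacts [⟨9, by norm_num, rfl, e2, e3⟩, ⟨8, by norm_num, rfl, e2, e3⟩, ⟨7, by norm_num, rfl, e2, e3⟩,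
    ⟨6, by norm_num, rfl, e2, e3⟩, ⟨5, by norm_num, rfl, e2, e3⟩, ⟨4, by norm_num, rfl, e2, e3⟩,
    ⟨3, by norm_num, rfl, e2, e3⟩, ⟨2, by norm_num, rfl, e2, e3⟩, ⟨1, by norm_num, rfl, e2, e3⟩,
    ⟨0, by norm_num, rfl, e2, e3⟩]

theorem lt_chk1 : allLt (fun j => force (Nat.pow 3 j) fun m => force (th j) fun D => allLt (fun u =>
    allLt (fun v => Nat.ble (Nat.succ (mu (gW u) (gW v))) D) m) m) 5 = true := by decide +kernel
theorem lt_chk2 : allLt (fun j => force (Nat.pow 3 j) fun m => allLt (fun r =>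
    allLt (fun q => Nat.ble (Nat.succ (Nat.div (gT r q) 2225411534618624)) m) m) m) 5 = true := by
  decide +kernel
theorem lt_chk3 : allLt (fun j => allLt (fun v => bimp (Nat.ble (Nat.succ (wd v)) (th j))
    (Nat.ble (Nat.succ v) (Nat.pow 3 j))) 243) 5 = true := by decide +kernel

theorem th_mono {i j : ℕ} (h : i ≤ j) (hj : j ≤ 10) : th i ≤ th j := by
  have : ∀ j < 11, ∀ i < 11, i ≤ j → th i ≤ th j := by decide +kernel
  exact this j (by omega) i (by omega) h

theorem th_pos (j : ℕ) : 0 < th j := by unfold th; split_ifs <;> positivity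

theorem mu_lt {j x y : ℕ} (hj : j ≤ 10) (hx : Val x) (hy : Val y) (h1 : x < th j) (h2 : y < th j) :
    mu x y < th j := by
  rcases hj.eq_or_lt with rfl | hj
  · exact (hx.mu hy).lt
  obtain ⟨q, hq, v, hv, rfl⟩ := hx
  obtain ⟨r, hr, u, hu, rfl⟩ := hy
  by_cases h5 : j < 5
  · have := th_mono h5.le (by norm_num)
    have e5 : th 5 = 2225411534618624 := rfl
    obtain rfl : q = 0 := by omega
    obtain rfl : r = 0 := by omega
    have k := (allLt_iff _ _).1 lt_chk1 j h5
    have k3 := (allLt_iff _ _).1 ((allLt_iff _ _).1 lt_chk3 j h5)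
    simp only [force_eq, allLt_iff, Nat.ble_eq, bimp_eq_true] at k k3
    simp only [mul_zero, zero_add] at h1 h2 ⊢
    rw [← (gW_eq hv).1, ← (gW_eq hu).1]
    exact k v (k3 v hv h1) u (k3 u hu h2)
  · obtain ⟨i, rfl⟩ : ∃ i, j = i + 5 := ⟨j - 5, by omega⟩
    have e : th (i + 5) = 2225411534618624 * 3 ^ i := by rw [th, if_neg h5, Nat.add_sub_cancel]
    have k := (allLt_iff _ _).1 lt_chk2 i (by omega)
    simp only [force_eq, allLt_iff, Nat.ble_eq] at k
    obtain ⟨h, hh, t, ht, e1⟩ := (row_val hr hq).1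
    obtain ⟨w, -, e2⟩ := (row_val hr hv).2
    have k' : gT r q / 2225411534618624 < 3 ^ i := k r (show r < 3 ^ i by omega) q (show q < 3 ^ i by omega)
    rw [e1, (sp ht).1] at k'
    have := wd_lt (ad t w u)
    rw [mu_form hv hu e1 e2, e]
    omega

section
variable {G : Type*} [Group G]

def p5 (a : ℕ → G) (o v : ℕ) : G :=
  a o ^ (v / 81 % 3) * a (o + 1) ^ (v / 27 % 3) * a (o + 2) ^ (v / 9 % 3) * a (o + 3) ^ (v / 3 % 3) *
    a (o + 4) ^ (v % 3)

/-- the element with a given code -/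
def ea (a : ℕ → G) (x : ℕ) : G := p5 a 0 (x / 2225411534618624) * p5 a 5 (x % 253)

theorem ea_eq (a : ℕ → G) (q : ℕ) {v : ℕ} (hv : v < 243) :
    ea a (2225411534618624 * q + wd v) = p5 a 0 q * p5 a 5 v := by rw [ea, (sp hv).1, (sp hv).2.2]

/-- the relations to be checked in the group -/
structure Rel (a : ℕ → G) : Prop where
  cm : ∀ i < 5, ∀ j < 5, Commute (a (5 + i)) (a (5 + j))
  cb : ∀ i < 5, a (5 + i) ^ 3 = 1
  row : ∀ r ∈ [0, 1, 3, 9, 27, 81], ∀ q < 243, ea a (gT r q) = p5 a 0 q * p5 a 0 r ∧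
    p5 a 0 r * p5 a 5 (gA r q % 253) = p5 a 5 q * p5 a 0 r

theorem five {a0 a1 a2 a3 a4 : G} (c01 : Commute a0 a1) (c02 : Commute a0 a2) (c03 : Commute a0 a3)
    (c04 : Commute a0 a4) (c12 : Commute a1 a2) (c13 : Commute a1 a3) (c14 : Commute a1 a4)
    (c23 : Commute a2 a3) (c24 : Commute a2 a4) (c34 : Commute a3 a4) (i0 i1 i2 i3 i4 j0 j1 j2 j3 j4 : ℕ) :
    (a0 ^ i0 * a1 ^ i1 * a2 ^ i2 * a3 ^ i3 * a4 ^ i4) * (a0 ^ j0 * a1 ^ j1 * a2 ^ j2 * a3 ^ j3 * a4 ^ j4) =
      a0 ^ (i0 + j0) * a1 ^ (i1 + j1) * a2 ^ (i2 + j2) * a3 ^ (i3 + j3) * a4 ^ (i4 + j4) := by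
  rw [Commute.mul_mul_mul_comm (((((c04.symm.pow_pow _ _).mul_right (c14.symm.pow_pow _ _)).mul_right
      (c24.symm.pow_pow _ _)).mul_right (c34.symm.pow_pow _ _))),
    Commute.mul_mul_mul_comm (((c03.symm.pow_pow _ _).mul_right (c13.symm.pow_pow _ _)).mul_right
      (c23.symm.pow_pow _ _)),
    Commute.mul_mul_mul_comm ((c02.symm.pow_pow _ _).mul_right (c12.symm.pow_pow _ _)),
    Commute.mul_mul_mul_comm (c01.symm.pow_pow _ _)]
  simp only [pow_add]

theorem Rel.ad {a : ℕ → G} (h : Rel a) (u v w : ℕ) :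
    p5 a 5 (ad u v w) = p5 a 5 u * p5 a 5 v * p5 a 5 w := by
  have m : ∀ n, n % 3 < 3 := fun n => Nat.mod_lt n (by norm_num)
  obtain ⟨e0, e1, e2, e3, e4⟩ := dg (m (u % 3 + v % 3 + w % 3)) (m (u / 3 % 3 + v / 3 % 3 + w / 3 % 3))
    (m (u / 9 % 3 + v / 9 % 3 + w / 9 % 3)) (m (u / 27 % 3 + v / 27 % 3 + w / 27 % 3))
    (m (u / 81 % 3 + v / 81 % 3 + w / 81 % 3))
  have f := five (h.cm 0 (by norm_num) 1 (by norm_num)) (h.cm 0 (by norm_num) 2 (by norm_num))
    (h.cm 0 (by norm_num) 3 (by norm_num)) (h.cm 0 (by norm_num) 4 (by norm_num))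
    (h.cm 1 (by norm_num) 2 (by norm_num)) (h.cm 1 (by norm_num) 3 (by norm_num))
    (h.cm 1 (by norm_num) 4 (by norm_num)) (h.cm 2 (by norm_num) 3 (by norm_num))
    (h.cm 2 (by norm_num) 4 (by norm_num)) (h.cm 3 (by norm_num) 4 (by norm_num))
  rw [p5.eq_def a 5 (H18.TH.ad u v w), H18.TH.ad, e0, e1, e2, e3, e4,
    ← pow_eq_pow_mod _ (h.cb 0 (by norm_num)), ← pow_eq_pow_mod _ (h.cb 1 (by norm_num)),
    ← pow_eq_pow_mod _ (h.cb 2 (by norm_num)), ← pow_eq_pow_mod _ (h.cb 3 (by norm_num)),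
    ← pow_eq_pow_mod _ (h.cb 4 (by norm_num)), ← f, ← f]
  rfl

def Row (a : ℕ → G) (r : ℕ) : Prop := ∀ q < 243, ea a (gT r q) = p5 a 0 q * p5 a 0 r ∧
  p5 a 0 r * p5 a 5 (gA r q % 253) = p5 a 5 q * p5 a 0 r

theorem Rel.mu_of {a : ℕ → G} (h : Rel a) {x r u : ℕ} (hx : Val x) (hr : r < 243) (hu : u < 243)
    (R : Row a r) : ea a (mu x (2225411534618624 * r + wd u)) = ea a x * (p5 a 0 r * p5 a 5 u) := by
  obtain ⟨q, hq, v, hv, rfl⟩ := hx
  obtain ⟨k, hh, t, ht, e1⟩ := (row_val hr hq).1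
  obtain ⟨w, hw, e2⟩ := (row_val hr hv).2
  have a1 := (R q hq).1
  have a2 := (R v hv).2
  rw [e1, ea_eq a _ ht] at a1
  rw [e2, (gW_eq hw).2] at a2
  rw [mu_form hv hu e1 e2, ea_eq a _ (ad_lt _ _ _), ea_eq a _ hv, h.ad]
  calc _ = (p5 a 0 k * p5 a 5 t) * p5 a 5 w * p5 a 5 u := by simp only [mul_assoc]
    _ = p5 a 0 q * (p5 a 0 r * p5 a 5 w) * p5 a 5 u := by rw [a1]; simp only [mul_assoc]
    _ = _ := by rw [a2]; simp only [mul_assoc]

theorem p5_zero (a : ℕ → G) (o : ℕ) : p5 a o 0 = 1 := by simp [p5]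

theorem Rel.rows {a : ℕ → G} (h : Rel a) (r : ℕ) : r < 243 → Row a r := by
  induction r using Nat.strong_induction_on with
  | _ r ih =>
    intro hr
    have k := row_ok hr
    simp only [rowOk, force_eq, band_eq_true, bor_eq_true, allLt_iff, anyL_iff, Nat.beq_eq] at k
    rcases k.2 with e | ⟨⟨s, hs, es⟩, e1, e2⟩
    · have k0 := (allLt_iff _ _).1 row_chk0 r hr
      simp only [bimp_eq_true, anyL_iff, Nat.beq_eq] at k0
      obtain ⟨s, hs, rfl⟩ := k0 e
      exact h.row _ hs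
    · rw [es] at e1 e2
      have hs' : s ∈ [0, 1, 3, 9, 27, 81] := List.mem_cons_of_mem _ hs
      have s1 : 0 < s ∧ s < 243 := by
        simp only [List.mem_cons, List.not_mem_nil, or_false] at hs; omega
      have r0 : 0 < r := by
        rcases Nat.eq_zero_or_pos r with rfl | a
        · have : gP 0 = 0 := by decide +kernel
          omega
        · exact a
      have hr' : r - s < 243 := by omega
      have R' := ih (r - s) (by omega) hr'
      have Rs : Row a s := h.row s hs'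
      have w0 : wd 0 = 0 := rfl
      have m := fun x (hx : Val x) => h.mu_of hx s1.2 (u := 0) (by norm_num) Rs
      simp only [w0, add_zero, p5_zero, mul_one] at m
      have A : p5 a 0 r = p5 a 0 (r - s) * p5 a 0 s := by
        have := ea_eq a r (v := 0) (by norm_num)
        rw [w0, add_zero, p5_zero, mul_one] at this
        rw [← (Rs _ hr').1, ← this]
        exact congrArg _ e1.symm
      intro q hq
      obtain ⟨w, hw, e3⟩ := (row_val hr' hq).2
      have e4 : gA r q = gA s (gA (r - s) q % 253) := (e2 q hq).2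
      have e5 : gT r q = mu (gT (r - s) q) (2225411534618624 * s) := (e2 q hq).1
      refine ⟨by rw [e5, m _ (row_val hr' hq).1, (R' q hq).1, A, mul_assoc], ?_⟩
      have b := (R' q hq).2
      rw [e3, (gW_eq hw).2] at b e4
      rw [e4, A, mul_assoc, (Rs w hw).2, ← mul_assoc, b, mul_assoc]

theorem Rel.mul {a : ℕ → G} (h : Rel a) {x y : ℕ} (hx : Val x) (hy : Val y) :
    ea a (mu x y) = ea a x * ea a y := by
  obtain ⟨r, hr, u, hu, rfl⟩ := hy
  rw [h.mu_of hx hr hu (h.rows r hr), ea_eq a _ hu]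

/-- `el` enumerates `S` by the valid codes -/
structure Md (S : Subgroup G) (el : ℕ → G) : Prop where
  mul : ∀ {x y}, Val x → Val y → el (mu x y) = el x * el y
  inj : ∀ {x y}, Val x → Val y → el x = el y → x = y
  mem : ∀ x, el x ∈ S
  sur : ∀ g ∈ S, ∃ x, Val x ∧ el x = g

end

theorem th3mu_eq : True := trivial

end H18.TH
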