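import Mathlib
import Cfsg.Agent.Base
import Cfsg.Agent.Lib.R3.Basic
import Cfsg.Agent.Lib.TH3.Mu

/-! Tables for subgroups of a group given by codes: sifting, membership, orders. -/

set_option autoImplicit false

namespace H18.TH

open Subgroup H54 H93.R3
open scoped commutatorElement Pointwise

local notation:max "𝐍(" A ")" => Subgroup.normalizer (SetLike.coe A)
local notation:max "𝐂(" A ")" => Subgroup.centralizer (SetLike.coe A)

inductive Tb : Type
  | nil : Tb
  | cons (D p : ℕ) (t : Tb) : Tb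

noncomputable def sl (p e : ℕ) : ℕ := Nat.land (Nat.shiftRight p (Nat.mul 64 e)) 18446744073709551615
noncomputable def pk (y : ℕ) : ℕ := Nat.add (mu y y) (Nat.shiftLeft y 64)

noncomputable def Tb.sift (t : Tb) : ℕ → ℕ :=
  Tb.rec (motive := fun _ => ℕ → ℕ) (fun x => x) (fun D p _ ih x =>
    Nat.rec (motive := fun _ => ℕ) (ih x) (fun e _ => ih (mu x (sl p e))) (Nat.div x D)) t

noncomputable def Tb.put (t : Tb) (D p : ℕ) : Tb :=
  Tb.rec (motive := fun _ => Tb) (.cons D p .nil) (fun D' p' t' ih =>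
    Bool.rec (motive := fun _ => Tb) (.cons D' p' ih)
      (Bool.rec (motive := fun _ => Tb) (.cons D p (.cons D' p' t')) (.cons D' p' t') (Nat.beq D D'))
      (Nat.ble D' D)) t

/-- insert without sifting -/
noncomputable def Tb.ins (t : Tb) (x : ℕ) : Tb := force x fun y =>
  Nat.rec (motive := fun _ => Tb) t (fun _ _ => force (dv y) fun D => force (pk y) fun p => t.put D p) y

/-- sift, normalise and insert -/
noncomputable def Tb.add (t : Tb) (x : ℕ) : Tb := force (t.sift x) fun y =>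
  t.ins (Bool.rec (motive := fun _ => ℕ) (mu y y) y (Nat.beq (Nat.div y (dv y)) 1))

noncomputable def Tb.len (t : Tb) : ℕ := Tb.rec (motive := fun _ => ℕ) 0 (fun _ _ _ ih => Nat.succ ih) t

noncomputable def Tb.all (f : ℕ → Bool) (t : Tb) : Bool :=
  Tb.rec (motive := fun _ => Bool) true (fun _ p _ ih => band (f (Nat.shiftRight p 64)) ih) t

noncomputable def Tb.mem (t : Tb) (x : ℕ) : Bool := Nat.beq (t.sift x) 0

/-- not a member, if the order is at most `3 ^ k` -/
noncomputable def Tb.nm (t : Tb) (k x : ℕ) : Bool := Nat.ble (Nat.succ k) (t.ins (t.sift x)).len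

noncomputable def adds (L : List ℕ) (t : Tb) : Tb :=
  List.rec (motive := fun _ => Tb) t (fun x _ ih => ih.add x) L

noncomputable def cm (x y : ℕ) : ℕ := mu (mu x y) (iv (mu y x))
noncomputable def cg (s x : ℕ) : ℕ := mu (mu s x) (iv s)
noncomputable def cu (x : ℕ) : ℕ := mu (mu x x) x
noncomputable def co (x y : ℕ) : Bool := Nat.beq (mu x y) (mu y x)

noncomputable def em (L : List ℕ) : List ℕ :=
  List.rec (motive := fun _ => List ℕ) [] (fun x _ ih => enc x :: ih) L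

/-- every element normalises the group generated by the later ones and has its cube in it -/
noncomputable def pcb (L : List ℕ) : Bool :=
  List.rec (motive := fun _ => Bool) true (fun x L' ih => band ih
    (band ((adds L' .nil).mem (cu x)) (allL (fun y => (adds L' .nil).mem (cg x y)) L'))) L

/-- `f` holds for all products `a * y₁ ^ e₁ * ⋯` -/
noncomputable def allE (f : ℕ → Bool) (ys : List ℕ) : ℕ → Bool :=
  List.rec (motive := fun _ => ℕ → Bool) f (fun y _ ih a =>
    band (ih a) (force (mu a y) fun b => band (ih b) (force (mu b y) ih))) ys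

noncomputable def tb (L : List ℕ) : Tb := adds L .nil
noncomputable def leB (A B : List ℕ) : Bool := allL (tb B).mem A
noncomputable def nmB (A B : List ℕ) : Bool := allL (fun a => allL (fun b => (tb B).mem (cg a b)) B) A
noncomputable def cmB (A B C : List ℕ) : Bool := band (nmB A C) (band (nmB B C)
  (allL (fun a => allL (fun b => (tb C).mem (cm a b)) B) A))
noncomputable def ceB (A B : List ℕ) : Bool := allL (fun a => allL (co a) B) A
noncomputable def lgB (L : List ℕ) : Bool := band (pcb L) (Nat.beq (tb L).len (len L))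

def AV (L : List ℕ) : Prop := ∀ x ∈ L, Val x

theorem av_em : ∀ L : List ℕ, AV (em L)
  | [] => fun _ h => absurd h List.not_mem_nil
  | x :: L => fun y hy => by
    rcases List.mem_cons.1 (show y ∈ enc x :: em L from hy) with rfl | h
    exacts [val_enc _, av_em L y h]

theorem AV.tail {x : ℕ} {L : List ℕ} (h : AV (x :: L)) : AV L := fun y hy => h y (List.mem_cons_of_mem _ hy)
theorem AV.head {x : ℕ} {L : List ℕ} (h : AV (x :: L)) : Val x := h x List.mem_cons_self
theorem AV.append {L L' : List ℕ} (h : AV L) (h' : AV L') : AV (L ++ L') :=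
  fun y hy => (List.mem_append.1 hy).elim (h y) (h' y)

theorem Val.cm {x y : ℕ} (hx : Val x) (hy : Val y) : Val (cm x y) := (hx.mu hy).mu (hy.mu hx).iv.1
theorem Val.cg {x y : ℕ} (hx : Val x) (hy : Val y) : Val (cg x y) := (hx.mu hy).mu hx.iv.1
theorem Val.cu {x : ℕ} (hx : Val x) : Val (cu x) := (hx.mu hx).mu hx

theorem pk_spec {y : ℕ} (hy : Val y) : Nat.shiftRight (pk y) 64 = y ∧
    ∀ e, sl (pk y) e = mu y y ∨ sl (pk y) e = y ∨ sl (pk y) e = 0 := by
  have a : mu y y < 540775002912325632 := (hy.mu hy).lt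
  have b : y < 540775002912325632 := hy.lt
  have e0 : pk y = mu y y + y * 2 ^ 64 := by rw [← Nat.shiftLeft_eq]; rfl
  have e1 : ∀ e, sl (pk y) e = pk y / 2 ^ (64 * e) % 2 ^ 64 := fun e => by
    rw [← Nat.shiftRight_eq_div_pow, ← Nat.and_two_pow_sub_one_eq_mod]; rfl
  refine ⟨(Nat.shiftRight_eq_div_pow _ 64).trans (by rw [e0]; omega), fun e => ?_⟩
  rw [e1, e0]
  rcases e with _ | _ | e
  · left; omega
  · right; left; omega
  · right; right
    rw [Nat.div_eq_of_lt, Nat.zero_mod]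
    exact lt_of_lt_of_le (by omega : _ < 2 ^ 128) (Nat.pow_le_pow_right (by norm_num) (by omega))

variable {Γ : Type*} [Group Γ] {S H H' : Subgroup Γ} {el : ℕ → Γ} {x y : ℕ}

/-- the entries of the table are elements of `H` of different levels below `b` -/
def Tb.Ok (el : ℕ → Γ) (H : Subgroup Γ) : Tb → ℕ → Prop
  | .nil, _ => True
  | .cons D p t, b => ∃ j y, j < b ∧ D = th j ∧ p = pk y ∧ Val y ∧ th j ≤ y ∧ y < th (j + 1) ∧
      el y ∈ H ∧ Tb.Ok el H t j

/-- the group generated by a list of codes -/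
def gp (el : ℕ → Γ) (L : List ℕ) : Subgroup Γ := closure (el '' {x | x ∈ L})

theorem mem_gp {L : List ℕ} (h : x ∈ L) : el x ∈ gp el L := subset_closure ⟨x, h, rfl⟩

theorem gp_le {L : List ℕ} : gp el L ≤ H ↔ ∀ x ∈ L, el x ∈ H := by
  rw [gp, closure_le]
  exact ⟨fun h x hx => h ⟨x, hx, rfl⟩, fun h _ ⟨x, hx, e⟩ => e ▸ h x hx⟩

theorem gp_nil : gp el [] = ⊥ := le_bot_iff.1 (gp_le.2 fun _ h => absurd h List.not_mem_nil)

theorem gp_append (L L' : List ℕ) : gp el (L ++ L') = gp el L ⊔ gp el L' :=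
  le_antisymm (gp_le.2 fun _ h => (List.mem_append.1 h).elim
    (fun h => mem_sup_left (mem_gp h)) fun h => mem_sup_right (mem_gp h))
    (sup_le (gp_le.2 fun _ h => mem_gp (List.mem_append_left _ h))
      (gp_le.2 fun _ h => mem_gp (List.mem_append_right _ h)))

theorem gp_one (x : ℕ) : gp el [x] = zpowers (el x) :=
  le_antisymm (gp_le.2 fun _ h => by rw [List.mem_singleton.1 h]; exact mem_zpowers _)
    (zpowers_le_of_mem (mem_gp List.mem_cons_self))

theorem gp_cons (x : ℕ) (L : List ℕ) : gp el (x :: L) = gp el L ⊔ zpowers (el x) := by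
  rw [← gp_one, sup_comm, ← gp_append]; rfl

theorem Tb.Ok.of_all {f : ℕ → Bool} (hf : ∀ y, Val y → el y ∈ H → f y = true → el y ∈ H') :
    ∀ {t : Tb} {b : ℕ}, t.Ok el H b → t.all f = true → t.Ok el H' b
  | .nil, _, _, _ => trivial
  | .cons _ _ t, _, ⟨j, y, a1, a2, a3, a4, a5, a6, a7, a8⟩, e => by
    have e' : band (f (Nat.shiftRight _ 64)) (t.all f) = true := e
    rw [band_eq_true, a3, (pk_spec a4).1] at e'
    exact ⟨j, y, a1, a2, a3, a4, a5, a6, hf y a4 a7 e'.1, Tb.Ok.of_all hf a8 e'.2⟩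

theorem Tb.Ok.mono (hH : H ≤ H') : ∀ {t : Tb} {b : ℕ}, t.Ok el H b → t.Ok el H' b
  | .nil, _, _ => trivial
  | .cons _ _ _, _, ⟨j, y, a1, a2, a3, a4, a5, a6, a7, a8⟩ =>
    ⟨j, y, a1, a2, a3, a4, a5, a6, hH a7, Tb.Ok.mono hH a8⟩

theorem th_lt {i j : ℕ} (h : i < j) (hj : j ≤ 10) : th i < th j := by
  have : ∀ j < 11, ∀ i < 11, i < j → th i < th j := by decide +kernel
  exact this j (by omega) i (by omega) h

theorem Tb.Ok.put {j y : ℕ} (hy : Val y) (h1 : th j ≤ y) (h2 : y < th (j + 1)) (hH : el y ∈ H) :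
    ∀ {t : Tb} {b : ℕ}, b ≤ 10 → j < b → t.Ok el H b → (t.put (th j) (pk y)).Ok el H b
  | .nil, _, _, hj, _ => ⟨j, y, hj, rfl, rfl, hy, h1, h2, hH, trivial⟩
  | .cons D p t, b, hb, hj, ⟨j', y', a1, a2, a3, a4, a5, a6, a7, a8⟩ => by
    show Tb.Ok el H (Bool.rec (motive := fun _ => Tb) (.cons D p (t.put (th j) (pk y)))
      (Bool.rec (motive := fun _ => Tb) (.cons (th j) (pk y) (.cons D p t)) (.cons D p t)
        (Nat.beq (th j) D)) (Nat.ble D (th j))) b
    cases e : Nat.ble D (th j)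
    · have : j < j' := by
        by_contra c
        have := th_mono (not_lt.1 c) (by omega)
        rw [← a2, ← Nat.ble_eq, e] at this; cases this
      exact ⟨j', y', a1, a2, a3, a4, a5, a6, a7, Tb.Ok.put hy h1 h2 hH (by omega) this a8⟩
    · cases e' : Nat.beq (th j) D
      · have : j' < j := by
          by_contra c
          rcases (not_lt.1 c).eq_or_lt with rfl | c
          · rw [a2, Nat.beq_refl] at e'; cases e'
          · have := th_lt c (by omega)
            rw [Nat.ble_eq] at e; omega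
        exact ⟨j, y, hj, rfl, rfl, hy, h1, h2, hH, j', y', this, a2, a3, a4, a5, a6, a7, a8⟩
      · exact ⟨j', y', a1, a2, a3, a4, a5, a6, a7, a8⟩

theorem Tb.Ok.ins {t : Tb} (h : t.Ok el H 10) (hx : Val x) (hH : el x ∈ H) : (t.ins x).Ok el H 10 := by
  simp only [Tb.ins, force_eq]
  rcases x with _ | x
  · exact h
  · obtain ⟨j, hj, e, a, b⟩ := hx.dv (Nat.succ_ne_zero x)
    rw [e]; exact Tb.Ok.put hx a b hH le_rfl hj h

namespace Md
variable (m : Md S el)
include m

theorem one : el 0 = 1 := by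
  have := m.mul val_zero val_zero
  rw [show mu 0 0 = 0 by decide +kernel] at this
  exact left_eq_mul.1 this

theorem iv (hx : Val x) : el (iv x) = (el x)⁻¹ :=
  eq_inv_of_mul_eq_one_right (by rw [← m.mul hx hx.iv.1, hx.iv.2, m.one])

theorem cm (hx : Val x) (hy : Val y) : el (cm x y) = ⁅el x, el y⁆ := by
  rw [H18.TH.cm, m.mul (hx.mu hy) (hy.mu hx).iv.1, m.iv (hy.mu hx), m.mul hx hy, m.mul hy hx,
    commutatorElement_def]; group

theorem cg (hx : Val x) (hy : Val y) : el (cg x y) = el x * el y * (el x)⁻¹ := by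
  rw [H18.TH.cg, m.mul (hx.mu hy) hx.iv.1, m.iv hx, m.mul hx hy]

theorem cu (hx : Val x) : el (cu x) = el x ^ 3 := by
  rw [H18.TH.cu, m.mul (hx.mu hx) hx, m.mul hx hx, pow_three']

theorem eq_one (hx : Val x) : el x = 1 ↔ x = 0 :=
  ⟨fun e => m.inj hx val_zero (e.trans m.one.symm), fun e => e ▸ m.one⟩

theorem co (hx : Val x) (hy : Val y) : co x y = true ↔ ⁅el x, el y⁆ = 1 := by
  rw [commutatorElement_eq_one_iff_mul_comm, ← m.mul hx hy, ← m.mul hy hx, H18.TH.co, Nat.beq_eq]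
  exact ⟨congrArg el, m.inj (hx.mu hy) (hy.mu hx)⟩

theorem gp_le_S (L : List ℕ) : gp el L ≤ S := gp_le.2 fun x _ => m.mem x

theorem sift : ∀ {t : Tb} {b x : ℕ}, t.Ok el H b → Val x →
    Val (t.sift x) ∧ ∃ k ∈ H, el (t.sift x) = el x * k
  | .nil, _, _, _, hx => ⟨hx, 1, one_mem _, (mul_one _).symm⟩
  | .cons D p t, b, x, ⟨j, y, _, _, a3, a4, _, _, a7, a8⟩, hx => by
    have e : (Tb.cons D p t).sift x = Nat.rec (motive := fun _ => ℕ) (t.sift x)
      (fun e _ => t.sift (mu x (sl p e))) (Nat.div x D) := rfl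
    rw [e]
    rcases Nat.div x D with _ | e
    · exact sift a8 hx
    · have : Val (sl p e) ∧ el (sl p e) ∈ H := by
        rw [a3]
        rcases (pk_spec a4).2 e with c | c | c <;> rw [c]
        exacts [⟨a4.mu a4, m.mul a4 a4 ▸ mul_mem a7 a7⟩, ⟨a4, a7⟩, ⟨val_zero, m.one ▸ one_mem _⟩]
      obtain ⟨v, k, hk, c⟩ := sift a8 (hx.mu this.1)
      exact ⟨v, _, mul_mem this.2 hk, by rw [← mul_assoc, ← m.mul hx this.1]; exact c⟩

theorem mem_of {t : Tb} (h : t.Ok el H 10) (hx : Val x) (e : t.mem x = true) : el x ∈ H := by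
  obtain ⟨-, k, hk, c⟩ := m.sift h hx
  rw [Nat.eq_of_beq_eq_true e, m.one] at c
  rw [eq_inv_of_mul_eq_one_left c.symm]; exact inv_mem hk

theorem add {t : Tb} (h : t.Ok el H 10) (hx : Val x) (hH : el x ∈ H) : (t.add x).Ok el H 10 := by
  obtain ⟨v, k, hk, c⟩ := m.sift h hx
  have a : el (t.sift x) ∈ H := c ▸ mul_mem hH hk
  rw [Tb.add, force_eq]
  cases Nat.beq (Nat.div (t.sift x) (dv (t.sift x))) 1
  · exact h.ins (v.mu v) (m.mul v v ▸ mul_mem a a)
  · exact h.ins v a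

theorem adds {t : Tb} (h : t.Ok el H 10) : ∀ {L : List ℕ}, AV L → (∀ x ∈ L, el x ∈ H) →
    (adds L t).Ok el H 10
  | [], _, _ => h
  | _ :: _, a, b => m.add (adds h a.tail fun y hy => b y (List.mem_cons_of_mem _ hy)) a.head
    (b _ List.mem_cons_self)

theorem tb {L : List ℕ} (h : AV L) : (tb L).Ok el (gp el L) 10 :=
  m.adds (t := .nil) trivial h fun _ => mem_gp

variable [Finite Γ]

/-- the terms of the series -/
def tl (j : ℕ) : Subgroup Γ :=
  { carrier := {g | ∃ x, Val x ∧ x < th (min j 10) ∧ el x = g}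
    one_mem' := ⟨0, val_zero, th_pos _, m.one⟩
    mul_mem' := fun ⟨x, a, b, c⟩ ⟨y, a', b', c'⟩ =>
      ⟨_, a.mu a', mu_lt (min_le_right _ _) a a' b b', by rw [m.mul a a', c, c']⟩
    inv_mem' := fun {g} ⟨x, a, b, c⟩ => by
      have : ∀ n, ∃ x, Val x ∧ x < th (min j 10) ∧ el x = g ^ n := fun n => by
        induction n with
        | zero => exact ⟨0, val_zero, th_pos _, m.one.trans (pow_zero g).symm⟩
        | succ n ih =>
          obtain ⟨y, a', b', c'⟩ := ih
          exact ⟨_, a'.mu a, mu_lt (min_le_right _ _) a' a b' b, by rw [m.mul a' a, c, c', pow_succ]⟩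
      have e : g⁻¹ = g ^ (orderOf g - 1) := inv_eq_of_mul_eq_one_left (by
        rw [← pow_succ, Nat.sub_add_cancel (orderOf_pos g), pow_orderOf_eq_one])
      rw [e]; exact this _ }

theorem mem_tl {j : ℕ} (hj : j ≤ 10) (hx : Val x) : el x ∈ m.tl j ↔ x < th j :=
  ⟨fun ⟨y, a, b, c⟩ => by rwa [m.inj a hx c, min_eq_left hj] at b,
    fun h => ⟨x, hx, by rwa [min_eq_left hj], rfl⟩⟩

theorem tl_le (j : ℕ) : m.tl j ≤ S := fun _ ⟨x, _, _, c⟩ => c ▸ m.mem x

theorem tl_mono {i j : ℕ} (h : i ≤ j) : m.tl i ≤ m.tl j := fun _ ⟨x, a, b, c⟩ =>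
  ⟨x, a, lt_of_lt_of_le b (th_mono (min_le_min_right _ h) (min_le_right _ _)), c⟩

variable [Fact (Nat.Prime 3)] (pS : IsPGroup 3 S)
include pS

theorem len_le' : ∀ {t : Tb} {b : ℕ}, b ≤ 10 → t.Ok el H b → t.len ≤ lg 3 (H ⊓ m.tl b)
  | .nil, _, _, _ => Nat.zero_le _
  | .cons _ _ t, b, hb, ⟨j, y, a1, _, _, a4, a5, a6, a7, a8⟩ => by
    have i := len_le' (by omega) a8
    have l := lg_lt_of_mem (p := 3) (pS.to_le (inf_le_right.trans (m.tl_le (j + 1))))
      (inf_le_inf_left H (m.tl_mono (Nat.le_succ j))) ⟨a7, (m.mem_tl (by omega) a4).2 a6⟩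
      fun c => absurd ((m.mem_tl (by omega) a4).1 c.2) (by omega)
    have l' := lg_mono (p := 3) (inf_le_inf_left H (m.tl_mono (show j + 1 ≤ b from a1)))
    show t.len + 1 ≤ _
    omega

theorem len_le {t : Tb} (h : t.Ok el H 10) : t.len ≤ lg 3 H :=
  (m.len_le' pS le_rfl h).trans (lg_mono inf_le_left)

theorem not_mem {t : Tb} {k : ℕ} (h : t.Ok el H 10) (hk : lg 3 H ≤ k) (hx : Val x)
    (e : t.nm k x = true) : el x ∉ H := fun c => by
  obtain ⟨v, g, hg, c'⟩ := m.sift h hx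
  have := m.len_le pS (h.ins v (c' ▸ mul_mem c hg))
  have e' : k + 1 ≤ _ := Nat.le_of_ble_eq_true e
  omega

omit pS [Fact (Nat.Prime 3)] m in
/-- an element normalises a group if it maps the generators into it -/
theorem norm_of {L : List ℕ} {g : Γ} (h : ∀ y ∈ L, g * el y * g⁻¹ ∈ gp el L) : g ∈ 𝐍(gp el L) :=
  mem_norm fun _ hz => by
    have : gp el L ≤ cn g⁻¹ (gp el L) := gp_le.2 fun y hy => by rw [mem_cn, inv_inv]; exact h y hy
    have := this hz
    rwa [mem_cn, inv_inv] at this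

omit pS [Fact (Nat.Prime 3)] in
theorem pc_cons {L : List ℕ} (a : AV (x :: L)) (e : pcb (x :: L) = true) :
    pcb L = true ∧ el x ^ 3 ∈ gp el L ∧ el x ∈ 𝐍(gp el L) := by
  have e' : band (pcb L) (band ((H18.TH.adds L .nil).mem (H18.TH.cu x))
    (allL (fun y => (H18.TH.adds L .nil).mem (H18.TH.cg x y)) L)) = true := e
  simp only [band_eq_true, allL_iff] at e'
  refine ⟨e'.1, m.cu a.head ▸ m.mem_of (m.tb a.tail) a.head.cu e'.2.1, norm_of fun y hy => ?_⟩
  rw [← m.cg a.head (a.tail y hy)]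
  exact m.mem_of (m.tb a.tail) (a.head.cg (a.tail y hy)) (e'.2.2 y hy)

omit pS in
theorem lg_le : ∀ {L : List ℕ}, AV L → pcb L = true → lg 3 (gp el L) ≤ L.length
  | [], _, _ => by rw [gp_nil, lg_bot]; rfl
  | x :: L, a, e => by
    obtain ⟨e1, e2, e3⟩ := m.pc_cons a e
    rw [gp_cons]
    exact (lg_sup_zpowers_le e3 e2).trans (Nat.succ_le_succ (lg_le a.tail e1))

omit pS [Fact (Nat.Prime 3)] m in
theorem three {g z : Γ} (h3 : g ^ 3 ∈ H) (hn : g ∈ 𝐍(H)) (hz : z ∈ H ⊔ zpowers g) :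
    z ∈ H ∨ (∃ k ∈ H, z = g * k) ∨ ∃ k ∈ H, z = g * g * k := by
  rw [sup_comm, mem_sup_iff' (zpowers_le_of_mem hn)] at hz
  obtain ⟨a, ha, k, hk, rfl⟩ := hz
  obtain ⟨n, rfl⟩ := (Submonoid.mem_powers_iff _ _).1 (mem_powers_iff_mem_zpowers.2 ha)
  have : g ^ n = g ^ (n % 3) * (g ^ 3) ^ (n / 3) := by rw [← pow_mul, ← pow_add, Nat.mod_add_div]
  have hk' := mul_mem (pow_mem h3 (n / 3)) hk
  rw [this, mul_assoc]
  have : n % 3 < 3 := Nat.mod_lt _ (by norm_num)
  interval_cases n % 3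
  · left; simpa using hk'
  · right; left; exact ⟨_, hk', by rw [pow_one]⟩
  · right; right; exact ⟨_, hk', by rw [pow_two]⟩

omit pS [Fact (Nat.Prime 3)] in
/-- the enumerated products represent all cosets -/
theorem cover {f : ℕ → Bool} {L : List ℕ} : ∀ {ys : List ℕ} {a : ℕ} {z : Γ}, AV (ys ++ L) →
    pcb (ys ++ L) = true → Val a → allE f ys a = true → z ∈ gp el (ys ++ L) →
    ∃ t, Val t ∧ f t = true ∧ ∃ k ∈ gp el L, el a * z = el t * k
  | [], a, z, _, _, ha, e, hz => ⟨a, ha, e, z, hz, rfl⟩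
  | y :: ys, a, z, v, c, ha, e, hz => by
    obtain ⟨e1, e2, e3⟩ := m.pc_cons v c
    have e' : band (allE f ys a) (force (mu a y) fun b => band (allE f ys b)
      (force (mu b y) (allE f ys))) = true := e
    simp only [band_eq_true, force_eq] at e'
    have hy := AV.head v
    rw [List.cons_append, gp_cons] at hz
    rcases three e2 e3 hz with b | ⟨k, b, rfl⟩ | ⟨k, b, rfl⟩
    · exact cover v.tail e1 ha e'.1 b
    · have := cover v.tail e1 (ha.mu hy) e'.2.1 b
      rwa [m.mul ha hy, mul_assoc] at this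
    · have := cover v.tail e1 ((ha.mu hy).mu hy) e'.2.2 b
      rwa [m.mul (ha.mu hy) hy, m.mul ha hy, mul_assoc, mul_assoc, ← mul_assoc (el y)] at this

end Md

/-- commutators of generators suffice -/
theorem comm_gp {L : List ℕ} {g : Γ} (hn : gp el L ≤ 𝐍(H)) (h : ∀ x ∈ L, ⁅g, el x⁆ ∈ H) :
    ∀ z ∈ gp el L, ⁅g, z⁆ ∈ H := fun _ hz =>
  comm_symm (mem_cz.1 ((gp_le.2 fun x hx => mem_cz.2 ⟨hn (mem_gp hx), comm_symm (h x hx)⟩ :
    gp el L ≤ cz g H) hz)).2

theorem comm_gp_gp {L L' : List ℕ} (hn : gp el L ≤ 𝐍(H)) (hn' : gp el L' ≤ 𝐍(H))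
    (h : ∀ x ∈ L, ∀ y ∈ L', ⁅el x, el y⁆ ∈ H) : ⁅gp el L, gp el L'⁆ ≤ H :=
  commutator_le.2 fun _ ha _ hb => comm_symm (comm_gp hn
    (fun x hx => comm_symm (comm_gp hn' (h x hx) _ hb)) _ ha)

namespace Md
variable (m : Md S el) {A B C : List ℕ}
include m

theorem memB (b : AV B) (hx : Val x) (e : (H18.TH.tb B).mem x = true) : el x ∈ gp el B :=
  m.mem_of (m.tb b) hx e

theorem leB (a : AV A) (b : AV B) (e : leB A B = true) : gp el A ≤ gp el B :=
  gp_le.2 fun x hx => m.memB b (a x hx) ((allL_iff _ _).1 e x hx)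

theorem ceB (a : AV A) (b : AV B) (e : ceB A B = true) : gp el A ≤ 𝐂(gp el B) :=
  comm_le_bot.1 (comm_gp_gp (norm_bot _) (norm_bot _) fun x hx y hy =>
    (m.co (a x hx) (b y hy)).1 ((allL_iff _ _).1 ((allL_iff _ _).1 e x hx) y hy))

variable [Finite Γ]

theorem nmB (a : AV A) (b : AV B) (e : nmB A B = true) : gp el A ≤ 𝐍(gp el B) :=
  gp_le.2 fun x hx => norm_of fun y hy => m.cg (a x hx) (b y hy) ▸
    m.memB b ((a x hx).cg (b y hy)) ((allL_iff _ _).1 ((allL_iff _ _).1 e x hx) y hy)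

theorem cmB (a : AV A) (b : AV B) (c : AV C) (e : cmB A B C = true) :
    ⁅gp el A, gp el B⁆ ≤ gp el C := by
  simp only [H18.TH.cmB, band_eq_true, allL_iff] at e
  exact comm_gp_gp (m.nmB a c e.1) (m.nmB b c e.2.1) fun x hx y hy => m.cm (a x hx) (b y hy) ▸
    m.memB c ((a x hx).cm (b y hy)) (e.2.2 x hx y hy)

/-- `A ++ B` is polycyclic, `B` lies in `H`, and no other coset representative does -/
theorem inf_le {f : ℕ → Bool} (a : AV (A ++ B)) (e : pcb (A ++ B) = true) (e' : allE f A 0 = true)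
    (hB : gp el B ≤ H) (hf : ∀ t, Val t → f t = true → el t ∈ H → el t ∈ gp el B) :
    gp el (A ++ B) ⊓ H ≤ gp el B := fun z hz => by
  obtain ⟨t, v, c, k, hk, d⟩ := m.cover a e val_zero e' hz.1
  rw [m.one, one_mul] at d
  exact d ▸ mul_mem (hf t v c (mem_of_mul (d ▸ hz.2) (hB hk))) hk

variable [Fact (Nat.Prime 3)] (pS : IsPGroup 3 S)
include pS

theorem lgB (a : AV A) (e : lgB A = true) : lg 3 (gp el A) = A.length := by
  simp only [H18.TH.lgB, band_eq_true, Nat.beq_eq, len_eq] at e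
  exact le_antisymm (m.lg_le a e.1) (e.2 ▸ m.len_le pS (m.tb a))

theorem nmemB (a : AV A) (e : H18.TH.lgB A = true) (hx : Val x)
    (e' : (H18.TH.tb A).nm (len A) x = true) : el x ∉ gp el A :=
  m.not_mem pS (m.tb a) ((m.lgB pS a e).trans (len_eq A).symm).le hx e'

end Md

theorem th3eng_eq : True := trivial

end H18.TH
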